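import Cfsg.Agent.H393.K547.XTool
import Cfsg.Agent.ClassicalGeometry.PSL2Basic
import Cfsg.Agent.S0279

/-!
# S4547: `XCond` for `PSL2(q)`, `PSL3(q)`, `PSU3(q)`, `q` odd (helper393)
-/

set_option autoImplicit false

namespace Cfsg.Agent.H393.K547

open Subgroup Cfsg Cfsg.Agent.H821.K547 Matrix

universe u

/-! ### arithmetic -/

/-- the 2-part of `q ^ 2 - 1` -/
theorem exists_two_part {q : ℕ} (hq : q % 2 = 1) (hq3 : 3 ≤ q) :
    ∃ n : ℕ, 3 ≤ n ∧ 2 ^ n ∣ q ^ 2 - 1 ∧ ¬ 2 ^ (n + 1) ∣ q ^ 2 - 1 ∧ ¬ 2 ^ n ∣ q - 1 ∧ ¬ 2 ^ n ∣ q + 1 := by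
  have h0 : q ^ 2 - 1 ≠ 0 := by
    have : 3 ^ 2 ≤ q ^ 2 := Nat.pow_le_pow_left hq3 2
    omega
  have hfac : q ^ 2 - 1 = (q + 1) * (q - 1) := by
    have := Nat.sq_sub_sq q 1
    rwa [one_pow] at this
  obtain ⟨n, hn⟩ : ∃ n, n = (q ^ 2 - 1).factorization 2 := ⟨_, rfl⟩
  have h1 : 2 ^ n ∣ q ^ 2 - 1 := hn ▸ Nat.ordProj_dvd _ _
  have h2 : ¬ 2 ^ (n + 1) ∣ q ^ 2 - 1 := hn ▸ Nat.pow_succ_factorization_not_dvd h0 Nat.prime_two
  have h3 : 3 ≤ n := by
    rw [hn]
    refine (Nat.prime_two.pow_dvd_iff_le_factorization h0).1 ?_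
    obtain ⟨k, rfl⟩ : ∃ k, q = 2 * k + 1 := ⟨q / 2, by omega⟩
    rw [hfac]
    have h1 : (2 * k + 1 + 1) * (2 * k + 1 - 1) = 4 * (k * (k + 1)) := by
      rw [Nat.add_sub_cancel]
      ring
    rw [h1]
    have h2 : 2 ∣ k * (k + 1) := (Nat.even_mul_succ_self k).two_dvd
    obtain ⟨m, hm⟩ := h2
    exact ⟨m, by rw [hm]; ring⟩
  refine ⟨n, h3, h1, h2, ?_, ?_⟩
  · intro h
    apply h2
    rw [hfac, pow_succ']
    exact mul_dvd_mul (by omega) h
  · intro h
    apply h2
    rw [hfac, pow_succ]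
    exact mul_dvd_mul h (by omega)

theorem exists_order {K : Type*} [Field K] [Finite K] {d : ℕ} (hd : d ∣ Nat.card Kˣ) : ∃ μ : K, orderOf μ = d := by
  obtain ⟨g, hg⟩ := IsCyclic.exists_ofOrder_eq_natCard (α := Kˣ)
  obtain ⟨m, hm⟩ := hd
  have hpos : 0 < Nat.card Kˣ := Nat.card_pos
  have hm0 : m ≠ 0 := by
    rintro rfl
    rw [mul_zero] at hm
    omega
  refine ⟨((g ^ m : Kˣ) : K), ?_⟩
  rw [orderOf_units, orderOf_pow_of_dvd hm0 (by rw [hg, hm]; exact dvd_mul_left _ _), hg, hm,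
    Nat.mul_div_cancel _ (Nat.pos_of_ne_zero hm0)]

theorem card_units' {K : Type*} [Field K] [Finite K] {q : ℕ} (hK : Nat.card K = q ^ 2) : Nat.card Kˣ = q ^ 2 - 1 := by
  rw [Nat.card_units, hK]

theorem odd_of_two_ne {F : Type*} [Field F] [Fintype F] (h2 : (2 : F) ≠ 0) : Fintype.card F % 2 = 1 := by
  refine FiniteField.odd_card_of_char_ne_two (F := F) fun h => h2 ?_
  have := CharP.cast_eq_zero F (ringChar F)
  rw [h] at this
  exact_mod_cast this

/-- the quadratic extension -/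
theorem exists_quad (F : Type*) [Field F] [Finite F] :
    ∃ (K : Type) (_ : Field K) (_ : Finite K) (_ : Algebra F K), Nat.card K = Nat.card F ^ 2 := by
  obtain ⟨p, hp⟩ := CharP.exists F
  have hf : Fact p.Prime := ⟨CharP.char_is_prime F p⟩
  exact ⟨FiniteField.Extension F p 2, inferInstance, inferInstance, inferInstance, FiniteField.natCard_extension F p 2⟩

theorem mem_range_of_pow {F K : Type*} [Field F] [Fintype F] [Field K] [Algebra F K] {x : K}
    (hx : x ^ Fintype.card F = x) : ∃ a : F, algebraMap F K a = x := by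
  classical
  have hq := Fintype.one_lt_card (α := F)
  have hne : (Polynomial.X ^ Fintype.card F - Polynomial.X : Polynomial K) ≠ 0 :=
    FiniteField.X_pow_card_sub_X_ne_zero K hq
  have hs : (Finset.univ.image fun a : F => algebraMap F K a) ⊆
      (Polynomial.X ^ Fintype.card F - Polynomial.X : Polynomial K).roots.toFinset := by
    intro y hy
    obtain ⟨a, -, rfl⟩ := Finset.mem_image.1 hy
    rw [Multiset.mem_toFinset, Polynomial.mem_roots hne, Polynomial.IsRoot.def]
    simp only [Polynomial.eval_sub, Polynomial.eval_pow, Polynomial.eval_X]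
    rw [← map_pow, FiniteField.pow_card, sub_self]
  have hc : (Polynomial.X ^ Fintype.card F - Polynomial.X : Polynomial K).roots.toFinset.card ≤
      (Finset.univ.image fun a : F => algebraMap F K a).card := by
    rw [Finset.card_image_of_injective _ (algebraMap F K).injective, Finset.card_univ]
    refine (Multiset.toFinset_card_le _).trans ((Polynomial.card_roots' _).trans ?_)
    rw [FiniteField.X_pow_card_sub_X_natDegree_eq K hq]
  have he := Finset.eq_of_subset_of_card_le hs hc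
  have : x ∈ (Polynomial.X ^ Fintype.card F - Polynomial.X : Polynomial K).roots.toFinset := by
    rw [Multiset.mem_toFinset, Polynomial.mem_roots hne, Polynomial.IsRoot.def]
    simp only [Polynomial.eval_sub, Polynomial.eval_pow, Polynomial.eval_X]
    rw [hx, sub_self]
  rw [← he] at this
  obtain ⟨a, -, ha⟩ := Finset.mem_image.1 this
  exact ⟨a, ha⟩

/-- a basis of `K ^ 3` from an invertible matrix of rows -/
theorem exists_basis {K : Type*} [Field K] (A : Matrix (Fin 3) (Fin 3) K) (hA : A.det ≠ 0) :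
    ∃ b : Module.Basis (Fin 3) K (Fin 3 → K), ∀ i, b i = A i := by
  have h1 : LinearIndependent K A.row :=
    Matrix.linearIndependent_rows_iff_isUnit.2 ((Matrix.isUnit_iff_isUnit_det A).2 (isUnit_iff_ne_zero.2 hA))
  refine ⟨basisOfLinearIndependentOfCardEqFinrank h1 (by simp), fun i => ?_⟩
  rw [coe_basisOfLinearIndependentOfCardEqFinrank]
  rfl

/-! ### `SL3(q)` -/

/-- the action of `SL_m(F)` on `K ^ m` -/
noncomputable def rep (F : Type u) [Field F] (K : Type*) [Field K] [Algebra F K] (m : ℕ) :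
    SpecialLinearGroup (Fin m) F →* Module.End K (Fin m → K) where
  toFun g := Matrix.mulVecLin (g.1.map (algebraMap F K))
  map_one' := by
    change Matrix.mulVecLin ((1 : Matrix (Fin m) (Fin m) F).map (algebraMap F K)) = _
    rw [Matrix.map_one _ (map_zero _) (map_one _), Matrix.mulVecLin_one]
    rfl
  map_mul' g h := by
    change Matrix.mulVecLin ((g.1 * h.1).map (algebraMap F K)) = _
    rw [Matrix.map_mul, Matrix.mulVecLin_mul]
    rfl

theorem rep_apply {F : Type u} [Field F] {K : Type*} [Field K] [Algebra F K] {m : ℕ}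
    (g : SpecialLinearGroup (Fin m) F) (v : Fin m → K) (i : Fin m) :
    rep F K m g v i = ∑ j, algebraMap F K (g.1 i j) * v j := rfl

/-- the numbers of the torus of order `q ^ 2 - 1` -/
structure Tor (F K : Type*) [Field F] [Fintype F] [Field K] [Algebra F K] (n : ℕ) (μ ν : K) (t d : F) : Prop where
  hn : 3 ≤ n
  ho : orderOf μ = 2 ^ n
  hν : ν = μ ^ Fintype.card F
  hνq : ν ^ Fintype.card F = μ
  hne : ν ≠ μ
  ht : algebraMap F K t = μ + ν
  hd : algebraMap F K d = μ * ν
  hdo : (μ * ν) ^ 2 ^ (n - 1) = 1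
  hμ0 : μ ≠ 0
  hν0 : ν ≠ 0
  hdt : ¬ 2 ^ (n + 1) ∣ Fintype.card F ^ 2 - 1
  hq : Fintype.card F % 2 = 1

theorem exists_tor (F : Type u) [Field F] [Fintype F] (h2 : (2 : F) ≠ 0) :
    ∃ (K : Type) (_ : Field K) (_ : Finite K) (_ : Algebra F K) (n : ℕ) (μ ν : K) (t d : F),
      Nat.card K = Fintype.card F ^ 2 ∧ Tor F K n μ ν t d := by
  obtain ⟨K, iK, fK, aK, hK⟩ := exists_quad F
  rw [Nat.card_eq_fintype_card (α := F)] at hK
  have hq := odd_of_two_ne h2
  have hq3 : 3 ≤ Fintype.card F := by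
    have := Fintype.one_lt_card (α := F)
    omega
  obtain ⟨n, hn, h3, h4, h5, h6⟩ := exists_two_part hq hq3
  obtain ⟨μ, hμ⟩ := exists_order (K := K) (d := 2 ^ n) (by rw [card_units' hK]; exact h3)
  have hμ0 : μ ≠ 0 := by
    rintro rfl
    rw [orderOf_zero] at hμ
    exact absurd hμ (by positivity)
  have hq2 : μ ^ (Fintype.card F ^ 2 - 1) = 1 := by
    rw [← orderOf_dvd_iff_pow_eq_one, hμ]
    exact h3
  have hfr : (μ ^ Fintype.card F) ^ Fintype.card F = μ := by
    rw [← pow_mul, ← sq]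
    have h7 : Fintype.card F ^ 2 = (Fintype.card F ^ 2 - 1) + 1 := by
      have : 0 < Fintype.card F ^ 2 := by positivity
      omega
    rw [h7, pow_succ, hq2, one_mul]
  have hadd : ∀ x y : K, (x + y) ^ Fintype.card F = x ^ Fintype.card F + y ^ Fintype.card F := by
    intro x y
    exact map_add (FiniteField.frobeniusAlgHom F K) x y
  obtain ⟨t, ht⟩ := mem_range_of_pow (F := F) (x := μ + μ ^ Fintype.card F) (by rw [hadd, hfr, add_comm])
  obtain ⟨d, hd⟩ := mem_range_of_pow (F := F) (x := μ * μ ^ Fintype.card F) (by rw [mul_pow, hfr, mul_comm])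
  refine ⟨K, iK, fK, aK, n, μ, μ ^ Fintype.card F, t, d, hK, hn, hμ, rfl, hfr, ?_, ht, hd, ?_, hμ0, pow_ne_zero _ hμ0,
    h4, hq⟩
  · intro h
    apply h5
    rw [← hμ]
    apply orderOf_dvd_of_pow_eq_one
    have h7 : μ ^ (Fintype.card F - 1) * μ = 1 * μ := by
      rw [← pow_succ, Nat.sub_add_cancel (by omega), h, one_mul]
    exact mul_right_cancel₀ hμ0 h7
  · rw [← pow_succ', ← pow_mul, ← orderOf_dvd_iff_pow_eq_one, hμ]
    obtain ⟨m, hm⟩ : ∃ m, Fintype.card F + 1 = 2 * m := ⟨(Fintype.card F + 1) / 2, by omega⟩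
    obtain ⟨k, rfl⟩ : ∃ k, n = k + 1 := ⟨n - 1, by omega⟩
    rw [hm, Nat.add_sub_cancel, pow_succ]
    exact ⟨m, by ring⟩

section

variable {F : Type u} [Field F] [Fintype F] {K : Type} [Field K] [Algebra F K] {n : ℕ} {μ ν : K} {t d : F}

theorem Tor.half (T : Tor F K n μ ν t d) : μ ^ 2 ^ (n - 1) ≠ 1 := by
  intro h
  have h1 := orderOf_dvd_of_pow_eq_one h
  rw [T.ho] at h1
  have h2 := (Nat.pow_dvd_pow_iff_le_right (by norm_num)).1 h1
  have := T.hn
  omega

theorem Tor.half' (T : Tor F K n μ ν t d) : ν ^ 2 ^ (n - 1) ≠ 1 := by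
  intro h
  apply T.half
  rw [← T.hνq, ← pow_mul, mul_comm, pow_mul, h, one_pow]

theorem Tor.d_ne (T : Tor F K n μ ν t d) : d ≠ 0 := by
  intro h
  have h1 := T.hd
  rw [h, map_zero] at h1
  exact mul_ne_zero T.hμ0 T.hν0 h1.symm

theorem Tor.indep (T : Tor F K n μ ν t d) {x y : F} (h : algebraMap F K x + algebraMap F K y * ν = 0) :
    x = 0 ∧ y = 0 := by
  have h1 : (algebraMap F K x + algebraMap F K y * ν) ^ Fintype.card F = 0 := by
    rw [h, zero_pow Fintype.card_ne_zero]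
  have hadd : ∀ x y : K, (x + y) ^ Fintype.card F = x ^ Fintype.card F + y ^ Fintype.card F := by
    intro x y
    exact map_add (FiniteField.frobeniusAlgHom F K) x y
  rw [hadd, mul_pow, T.hνq, ← map_pow, ← map_pow, FiniteField.pow_card, FiniteField.pow_card] at h1
  have h2 : algebraMap F K y * (ν - μ) = 0 := by linear_combination h - h1
  rcases mul_eq_zero.1 h2 with h3 | h3
  · rw [h3, zero_mul, add_zero] at h
    exact ⟨(map_eq_zero _).1 h, (map_eq_zero _).1 h3⟩
  · exact absurd (sub_eq_zero.1 h3) T.hne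

end

theorem xcond_sl3 {F : Type u} [Field F] [Fintype F] (h2 : (2 : F) ≠ 0) : XCond (SpecialLinearGroup (Fin 3) F) := by
  obtain ⟨K, _, _, _, n, μ, ν, t, d, hK, T⟩ := exists_tor F h2
  obtain ⟨b, hb⟩ := exists_basis !![-ν, 1, 0; -μ, 1, 0; 0, 0, (1 : K)] (by
    rw [Matrix.det_fin_three]
    simp
    intro h
    exact T.hne (by linear_combination -h))
  have hd0 := T.d_ne
  have hdK : algebraMap F K d ≠ 0 := by rwa [Ne, map_eq_zero]
  let x : SpecialLinearGroup (Fin 3) F := ⟨!![0, -d, 0; 1, t, 0; 0, 0, d⁻¹], by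
    rw [Matrix.det_fin_three]
    simp
    field_simp⟩
  refine xcond_of_eigen (rep F K 3) x (n := n) (by have := T.hn; omega) b ![μ, ν, (μ * ν)⁻¹] ?_ ?_ T.ho
    (Fintype.card F) T.hν ?_ ?_ (by rw [card_units' hK]; exact T.hdt)
  · have h3 : (μ * ν)⁻¹ ^ 2 ^ (n - 1) = 1 := by rw [inv_pow, T.hdo, inv_one]
    intro i j hij
    fin_cases i <;> fin_cases j
    · rfl
    · exact absurd hij.symm T.hne
    · exact absurd (by change μ = (μ * ν)⁻¹ at hij; rw [hij]; exact h3) T.half
    · exact absurd hij T.hne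
    · rfl
    · exact absurd (by change ν = (μ * ν)⁻¹ at hij; rw [hij]; exact h3) T.half'
    · exact absurd (by change (μ * ν)⁻¹ = μ at hij; rw [← hij]; exact h3) T.half
    · exact absurd (by change (μ * ν)⁻¹ = ν at hij; rw [← hij]; exact h3) T.half'
    · rfl
  · intro i
    ext j
    rw [rep_apply, Fin.sum_univ_three, hb]
    have ht := T.ht
    have hd := T.hd
    fin_cases i <;> fin_cases j <;> simp [x, ht, hd, mul_comm]
  · change (μ * ν)⁻¹ ^ 2 ^ (n - 1) = 1
    rw [inv_pow, T.hdo, inv_one]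
  · intro c a hc ha
    have h0 : ∀ j, rep F K 3 c (b 0) j = (a 0 • b 0) j := fun j => by rw [hc]
    have h3 : ∀ j, rep F K 3 c (b 2) j = (a 2 • b 2) j := fun j => by rw [hc]
    simp only [rep_apply, Fin.sum_univ_three, hb, ha, one_smul] at h0
    simp only [rep_apply, Fin.sum_univ_three, hb] at h3
    have h00 := h0 0
    have h01 := h0 1
    have h02 := h0 2
    have h30 := h3 0
    have h31 := h3 1
    simp at h00 h01 h02 h30 h31
    obtain ⟨e1, e2⟩ := T.indep (x := c.1 0 1) (y := 1 - c.1 0 0) (by rw [map_sub, map_one]; linear_combination h00)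
    obtain ⟨e3, e4⟩ := T.indep (x := c.1 1 1 - 1) (y := - c.1 1 0) (by rw [map_sub, map_one, map_neg]; linear_combination h01)
    obtain ⟨e5, e6⟩ := T.indep (x := c.1 2 1) (y := - c.1 2 0) (by rw [map_neg]; linear_combination h02)
    have hdet := c.2
    rw [Matrix.det_fin_three] at hdet
    have e0 : c.1 0 0 = 1 := by linear_combination -e2
    have e1' : c.1 1 1 = 1 := by linear_combination e3
    have e4' : c.1 1 0 = 0 := by linear_combination -e4
    have e6' : c.1 2 0 = 0 := by linear_combination -e6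
    rw [e0, e1, e1', e4', e5, e6', h30, h31] at hdet
    have e7 : c.1 2 2 = 1 := by linear_combination hdet
    ext i j
    fin_cases i <;> fin_cases j
    · exact e0
    · exact e1
    · exact h30
    · exact e4'
    · exact e1'
    · exact h31
    · exact e6'
    · exact e5
    · exact e7

/-- **`XCond` for `PSL3(q)`, `q` odd** -/
theorem xcond_psl3 {F : Type u} [Field F] [Fintype F] (h2 : (2 : F) ≠ 0) :
    XCond (Matrix.ProjectiveSpecialLinearGroup (Fin 3) F) := by
  refine xcond_quot _ le_rfl ?_ (xcond_sl3 h2)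
  intro hd
  obtain ⟨z, hz⟩ := exists_prime_orderOf_dvd_card' (G := center (SpecialLinearGroup (Fin 3) F)) 2 hd
  obtain ⟨r, hr, hrz⟩ := Matrix.SpecialLinearGroup.mem_center_iff.1 z.2
  have hz2 : ((z : SpecialLinearGroup (Fin 3) F)) ^ 2 = 1 := by
    have := pow_orderOf_eq_one z
    rw [hz] at this
    exact congrArg Subtype.val this
  have h1 : r ^ 2 = 1 := by
    have h3 := congrArg (fun g : SpecialLinearGroup (Fin 3) F => (g : Matrix (Fin 3) (Fin 3) F) 0 0) hz2
    simp only [Matrix.SpecialLinearGroup.coe_pow, Matrix.SpecialLinearGroup.coe_one, Matrix.one_apply_eq] at h3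
    rw [← hrz, ← map_pow] at h3
    simpa using h3
  rw [Fintype.card_fin] at hr
  have h4 : r = 1 := by
    calc r = r ^ 3 * (r ^ 2)⁻¹ := by
          have : r ≠ 0 := by
            rintro rfl
            norm_num at h1
          field_simp
      _ = 1 := by rw [hr, h1, inv_one, mul_one]
  have h5 : (z : SpecialLinearGroup (Fin 3) F) = 1 := by
    apply Subtype.ext
    rw [← hrz, h4, map_one]
    rfl
  have h6 : z = 1 := Subtype.ext h5
  rw [h6, orderOf_one] at hz
  norm_num at hz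

/-! ### `PSL2(q)` -/

/-- **`XCond` for `PSL2(q)`, `q` odd** -/
theorem xcond_psl2 {F : Type u} [Field F] [Fintype F] (h2 : (2 : F) ≠ 0) :
    XCond (Matrix.ProjectiveSpecialLinearGroup (Fin 2) F) := by
  obtain ⟨K, _, _, _, n, μ, ν, t, d, hK, T⟩ := exists_tor F h2
  have hn := T.hn
  have hq := T.hq
  -- the trace
  obtain ⟨t', ht'⟩ : ∃ t' : F, algebraMap F K t' = μ ^ 2 + (μ ^ 2)⁻¹ := by
    have hadd : ∀ x y : K, (x + y) ^ Fintype.card F = x ^ Fintype.card F + y ^ Fintype.card F := by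
      intro x y
      exact map_add (FiniteField.frobeniusAlgHom F K) x y
    refine mem_range_of_pow ?_
    rw [hadd, inv_pow, ← pow_mul]
    have h3 : 2 ^ n ∣ (Fintype.card F + 1) * (Fintype.card F - 1) := by
      have h4 : (Fintype.card F + 1) * (Fintype.card F - 1) = Fintype.card F ^ 2 - 1 := by
        have := Nat.sq_sub_sq (Fintype.card F) 1
        rw [one_pow] at this
        exact this.symm
      rw [h4, ← T.ho]
      apply orderOf_dvd_of_pow_eq_one
      have h5 : μ ^ (Fintype.card F ^ 2 - 1) * μ = 1 * μ := by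
        rw [← pow_succ, Nat.sub_add_cancel (Nat.one_le_pow _ _ Fintype.card_pos), one_mul]
        have h6 := T.hνq
        rw [T.hν, ← pow_mul, ← sq] at h6
        exact h6
      exact mul_right_cancel₀ T.hμ0 h5
    have hq1 : Fintype.card F % 4 = 1 ∨ Fintype.card F % 4 = 3 := by omega
    rcases hq1 with h4 | h4
    · -- 2 (q - 1) is divisible by 2 ^ n
      have h5 : 2 ^ n ∣ 2 * (Fintype.card F - 1) := by
        obtain ⟨m, hm⟩ : ∃ m, Fintype.card F + 1 = 2 * m ∧ m % 2 = 1 := ⟨(Fintype.card F + 1) / 2, by omega, by omega⟩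
        rw [hm.1, mul_comm 2 m, mul_assoc] at h3
        exact (Nat.Coprime.dvd_of_dvd_mul_left (Nat.Coprime.pow_left _ (by
          rw [Nat.coprime_two_left, Nat.odd_iff]; exact hm.2)) h3)
      rw [← T.ho] at h5
      have h6 : μ ^ (2 * Fintype.card F) = μ ^ 2 := by
        have h7 : 2 * Fintype.card F = 2 * (Fintype.card F - 1) + 2 := by omega
        rw [h7, pow_add, orderOf_dvd_iff_pow_eq_one.1 h5, one_mul]
      rw [h6]
    · have h5 : 2 ^ n ∣ 2 * (Fintype.card F + 1) := by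
        obtain ⟨m, hm⟩ : ∃ m, Fintype.card F - 1 = 2 * m ∧ m % 2 = 1 := ⟨(Fintype.card F - 1) / 2, by omega, by omega⟩
        rw [hm.1, mul_comm, mul_comm 2 m, mul_assoc] at h3
        exact (Nat.Coprime.dvd_of_dvd_mul_left (Nat.Coprime.pow_left _ (by
          rw [Nat.coprime_two_left, Nat.odd_iff]; exact hm.2)) h3)
      rw [← T.ho] at h5
      have h6 : μ ^ (2 * Fintype.card F) = (μ ^ 2)⁻¹ := by
        have h7 : 2 * (Fintype.card F + 1) = 2 * Fintype.card F + 2 := by omega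
        rw [h7] at h5
        have h8 := orderOf_dvd_iff_pow_eq_one.1 h5
        rw [pow_add] at h8
        exact eq_inv_of_mul_eq_one_left h8
      rw [h6, inv_inv, add_comm]
  let y : SpecialLinearGroup (Fin 2) F := ⟨!![0, -1; 1, t'], by simp [Matrix.det_fin_two]⟩
  have hy : ∀ k : ℕ, rep F K 2 (y ^ k) ![-(μ ^ 2)⁻¹, 1] = (μ ^ 2) ^ k • ![-(μ ^ 2)⁻¹, 1] := by
    have h1 : rep F K 2 y ![-(μ ^ 2)⁻¹, 1] = μ ^ 2 • ![-(μ ^ 2)⁻¹, 1] := by
      have h00 : μ ≠ 0 := T.hμ0
      ext j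
      rw [rep_apply, Fin.sum_univ_two]
      fin_cases j
      · simp [y]
        field_simp
      · simp [y, ht']
    intro k
    induction k with
    | zero => simp
    | succ k ih => rw [pow_succ, map_mul, Module.End.mul_apply, h1, map_smul, ih, smul_smul, ← pow_succ']
  obtain ⟨m, rfl⟩ : ∃ m, n = m + 2 := ⟨n - 2, by omega⟩
  -- the order of the image of y
  have hord : 2 ^ m ∣ orderOf (y : Matrix.ProjectiveSpecialLinearGroup (Fin 2) F) := by
    have h1 : y ^ orderOf (y : Matrix.ProjectiveSpecialLinearGroup (Fin 2) F) ∈ center (SpecialLinearGroup (Fin 2) F) := by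
      rw [← QuotientGroup.eq_one_iff, QuotientGroup.mk_pow, pow_orderOf_eq_one]
    have h3 : ((μ ^ 2) ^ orderOf (y : Matrix.ProjectiveSpecialLinearGroup (Fin 2) F)) ^ 2 = 1 := by
      have h4 : (y ^ orderOf (y : Matrix.ProjectiveSpecialLinearGroup (Fin 2) F)) ^ 2 = 1 := by
        rcases ClassicalGeometry.PSL2Basic.mem_center_SL2_iff.1 h1 with h | h
        · rw [h, one_pow]
        · rw [h, neg_sq, one_pow]
      rw [← pow_mul] at h4
      have h5 := congrFun (hy (orderOf (y : Matrix.ProjectiveSpecialLinearGroup (Fin 2) F) * 2)) 1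
      rw [h4, map_one, pow_mul] at h5
      simpa using h5.symm
    rw [← pow_mul, ← pow_mul, ← orderOf_dvd_iff_pow_eq_one, T.ho, pow_add] at h3
    obtain ⟨c, hc⟩ := h3
    exact ⟨c, by nlinarith [hc]⟩
  obtain ⟨c, hc⟩ := hord
  have hpos : 0 < orderOf (y : Matrix.ProjectiveSpecialLinearGroup (Fin 2) F) := orderOf_pos _
  have hc0 : c ≠ 0 := by
    rintro rfl
    rw [mul_zero] at hc
    omega
  refine xcond_of_card ((y : Matrix.ProjectiveSpecialLinearGroup (Fin 2) F) ^ c) m ?_ ?_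
  · rw [orderOf_pow_of_dvd hc0 ⟨2 ^ m, by rw [hc, mul_comm]⟩, hc, Nat.mul_div_cancel _ (Nat.pos_of_ne_zero hc0)]
  · intro hd
    have h1 := card_eq_card_quotient_mul_card_subgroup (center (SpecialLinearGroup (Fin 2) F))
    rw [ClassicalGeometry.PSL2Basic.card_SL2, ClassicalGeometry.PSL2Basic.card_center_SL2_odd h2] at h1
    have h3 : 2 ^ (m + 2 + 1) ∣ Fintype.card F * (Fintype.card F ^ 2 - 1) := by
      rw [h1, pow_succ]
      exact mul_dvd_mul_right hd 2
    exact T.hdt ((Nat.Coprime.dvd_of_dvd_mul_left (Nat.Coprime.pow_left _ (by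
          rw [Nat.coprime_two_left, Nat.odd_iff]; exact hq)) h3))

/-! ### `PSU3(q)` -/

theorem add_pow_q {F : Type*} [Field F] [Fintype F] {q : ℕ} (hF : Fintype.card F = q ^ 2) (x y : F) :
    (x + y) ^ q = x ^ q + y ^ q := by
  obtain ⟨p, hp⟩ := CharP.exists F
  have hpp : p.Prime := CharP.char_is_prime F p
  have hf : Fact p.Prime := ⟨hpp⟩
  obtain ⟨k, -, hk⟩ := FiniteField.card F p
  have h1 : q ∣ p ^ (k : ℕ) := by
    rw [← hk, hF]
    exact dvd_pow_self q (by norm_num)
  obtain ⟨j, -, hj⟩ := (Nat.dvd_prime_pow hpp).1 h1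
  rw [hj]
  exact add_pow_char_pow x y p j

/-- the standard representation of `SU_3` -/
noncomputable def repU (F : Type u) [Field F] (q : ℕ) : SU 3 F q →* Module.End F (Fin 3 → F) where
  toFun g := Matrix.mulVecLin g.1.1
  map_one' := by
    change Matrix.mulVecLin (1 : Matrix (Fin 3) (Fin 3) F) = _
    rw [Matrix.mulVecLin_one]
    rfl
  map_mul' g h := by
    change Matrix.mulVecLin (g.1.1 * h.1.1) = _
    rw [Matrix.mulVecLin_mul]
    rfl

theorem repU_apply {F : Type u} [Field F] {q : ℕ} (g : SU 3 F q) (v : Fin 3 → F) (i : Fin 3) :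
    repU F q g v i = ∑ j, g.1.1 i j * v j := rfl

theorem xcond_su3 {F : Type u} [Field F] [Fintype F] {q : ℕ} (hF : Fintype.card F = q ^ 2) (h2 : (2 : F) ≠ 0) :
    XCond (SU 3 F q) := by
  have hqo : q % 2 = 1 := by
    have h1 := odd_of_two_ne h2
    rw [hF] at h1
    rcases Nat.mod_two_eq_zero_or_one q with h | h
    · rw [Nat.pow_mod, h] at h1
      norm_num at h1
    · exact h
  have hq3 : 3 ≤ q := by
    have h1 := Fintype.one_lt_card (α := F)
    rw [hF] at h1
    have h3 : q ≠ 1 := by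
      rintro rfl
      norm_num at h1
    omega
  obtain ⟨n, hn, h3, h4, h5, h6⟩ := exists_two_part hqo hq3
  have hcF : Nat.card F = q ^ 2 := by rw [Nat.card_eq_fintype_card, hF]
  obtain ⟨μ, hμ⟩ := exists_order (K := F) (d := 2 ^ n) (by rw [card_units' hcF]; exact h3)
  have hμ0 : μ ≠ 0 := by
    rintro rfl
    rw [orderOf_zero] at hμ
    exact absurd hμ (by positivity)
  have hfr : ∀ z : F, (z ^ q) ^ q = z := by
    intro z
    rw [← pow_mul, ← sq, ← hF, FiniteField.pow_card]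
  -- a square root of `-1` for the norm
  obtain ⟨α, hα⟩ : ∃ α : F, α * α ^ q = -1 := by
    obtain ⟨g, hg⟩ := exists_order (K := F) (d := q ^ 2 - 1) (by rw [card_units' hcF])
    refine ⟨g ^ ((q - 1) / 2), ?_⟩
    have h7 : g ^ ((q - 1) / 2) * (g ^ ((q - 1) / 2)) ^ q = g ^ ((q - 1) / 2 * (q + 1)) := by
      rw [pow_mul, pow_succ']
    rw [h7]
    have h8 : 2 * ((q - 1) / 2 * (q + 1)) = q ^ 2 - 1 := by
      have := Nat.sq_sub_sq q 1
      rw [one_pow] at this
      rw [this, ← mul_assoc, Nat.mul_div_cancel' (by omega), mul_comm]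
    have h9 : (g ^ ((q - 1) / 2 * (q + 1))) ^ 2 = 1 := by
      rw [← pow_mul, mul_comm _ 2, h8, ← hg, pow_orderOf_eq_one]
    have h10 : (g ^ ((q - 1) / 2 * (q + 1)) - 1) * (g ^ ((q - 1) / 2 * (q + 1)) + 1) = 0 := by
      linear_combination h9
    rcases mul_eq_zero.1 h10 with h | h
    · exfalso
      have h11 := orderOf_dvd_of_pow_eq_one (sub_eq_zero.1 h)
      rw [hg, ← h8] at h11
      have h12 : 0 < (q - 1) / 2 * (q + 1) := Nat.mul_pos (by omega) (by omega)
      have := Nat.le_of_dvd h12 h11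
      omega
    · exact eq_neg_of_add_eq_zero_left h
  have hα0 : α ≠ 0 := by
    rintro rfl
    rw [zero_mul] at hα
    exact one_ne_zero (neg_eq_zero.1 hα.symm)
  have hαi : (α⁻¹) ^ q = -α := by
    rw [inv_pow]
    have : α ^ q = -α⁻¹ := by
      field_simp
      linear_combination hα
    rw [this, inv_neg, inv_inv]
  -- the eigenvalues
  obtain ⟨κ, hκ⟩ : ∃ κ : F, κ = (μ ^ q)⁻¹ := ⟨_, rfl⟩
  have hκ0 : κ ≠ 0 := by rw [hκ]; exact inv_ne_zero (pow_ne_zero _ hμ0)
  have hκq : κ ^ q = μ⁻¹ := by rw [hκ, inv_pow, hfr]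
  have hμq : μ ^ q = κ⁻¹ := by rw [hκ, inv_inv]
  obtain ⟨γ, hγ⟩ : ∃ γ : F, γ = μ ^ (q - 1) := ⟨_, rfl⟩
  have hγμ : γ * μ = μ ^ q := by rw [hγ, ← pow_succ, Nat.sub_add_cancel (by omega)]
  have hγ1 : μ * κ * γ = 1 := by
    have : μ * κ * γ = (γ * μ) * κ := by ring
    rw [this, hγμ, hμq, inv_mul_cancel₀ hκ0]
  have hγγ : γ * γ ^ q = 1 := by
    have h7 : (μ * κ * γ) ^ q = 1 := by rw [hγ1, one_pow]
    rw [mul_pow, mul_pow, hμq, hκq] at h7
    have h8 : μ * κ ≠ 0 := mul_ne_zero hμ0 hκ0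
    field_simp at h7
    calc γ * γ ^ q = γ * (μ * κ) := by rw [h7, mul_comm κ μ]
      _ = 1 := by rw [mul_comm]; exact hγ1
  have half : μ ^ 2 ^ (n - 1) ≠ 1 := by
    intro h
    have h1 := orderOf_dvd_of_pow_eq_one h
    rw [hμ] at h1
    have h2 := (Nat.pow_dvd_pow_iff_le_right (by norm_num)).1 h1
    omega
  have half' : κ ^ 2 ^ (n - 1) ≠ 1 := by
    intro h
    apply half
    have h1 : μ = (κ ^ q)⁻¹ := by rw [hκq, inv_inv]
    rw [h1, inv_pow, ← pow_mul, mul_comm, pow_mul, h, one_pow, inv_one]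
  have hγh : γ ^ 2 ^ (n - 1) = 1 := by
    rw [hγ, ← pow_mul, ← orderOf_dvd_iff_pow_eq_one, hμ]
    obtain ⟨m, hm⟩ : ∃ m, q - 1 = 2 * m := ⟨(q - 1) / 2, by omega⟩
    obtain ⟨k, rfl⟩ : ∃ k, n = k + 1 := ⟨n - 1, by omega⟩
    rw [hm, Nat.add_sub_cancel, pow_succ]
    exact ⟨m, by ring⟩
  have hne : μ ≠ κ := by
    intro h
    apply h6
    rw [← hμ]
    apply orderOf_dvd_of_pow_eq_one
    rw [pow_succ, hμq, ← h, inv_mul_cancel₀ hμ0]
  have h4' : (4 : F) ≠ 0 := by
    have : (4 : F) = 2 * 2 := by norm_num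
    rw [this]
    exact mul_ne_zero h2 h2
  -- the element
  obtain ⟨s, hs⟩ : ∃ s : F, s = (μ + κ) / 2 := ⟨_, rfl⟩
  obtain ⟨t, ht⟩ : ∃ t : F, t = (μ - κ) / 2 := ⟨_, rfl⟩
  have h2q : (2 : F) ^ q = 2 := by
    have : (2 : F) = 1 + 1 := by norm_num
    rw [this, add_pow_q hF, one_pow]
  have hneg : ∀ z : F, (-z) ^ q = -z ^ q := by
    intro z
    rw [Odd.neg_pow (Nat.odd_iff.2 hqo)]
  have hsq : s ^ q = (κ⁻¹ + μ⁻¹) / 2 := by rw [hs, div_pow, add_pow_q hF, hμq, hκq, h2q]
  have htq : t ^ q = (κ⁻¹ - μ⁻¹) / 2 := by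
    rw [ht, div_pow, sub_eq_add_neg, add_pow_q hF, hneg, hμq, hκq, h2q, sub_eq_add_neg]
  have hst : s ^ 2 - t ^ 2 = μ * κ := by
    rw [hs, ht]
    field_simp
    ring
  have e1 : s * s ^ q - t * t ^ q = 1 := by
    rw [hsq, htq, hs, ht]
    field_simp
    ring
  have e2 : t * s ^ q = s * t ^ q := by
    rw [hsq, htq, hs, ht]
    field_simp
  let x₀ : Matrix.SpecialLinearGroup (Fin 3) F := ⟨!![s, t * α⁻¹, 0; α * t, s, 0; 0, 0, γ], by
    rw [Matrix.det_fin_three]
    simp
    have : s * s * γ - t * α⁻¹ * (α * t) * γ = (s ^ 2 - t ^ 2) * γ := by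
      field_simp
    rw [this, hst, hγ1]⟩
  have hx₀ : x₀ ∈ SU 3 F q := by
    rw [LieClassical.SUBasic.mem_SU_iff]
    intro u v
    simp only [LieClassical.SUBasic.hermForm_apply, Fin.sum_univ_three, Matrix.mulVec, dotProduct, x₀]
    simp
    have a1 : (s * v 0 + t * α⁻¹ * v 1) ^ q = s ^ q * v 0 ^ q - t ^ q * α * v 1 ^ q := by
      rw [add_pow_q hF, mul_pow, mul_pow, mul_pow, hαi]
      ring
    have a2 : (α * t * v 0 + s * v 1) ^ q = α ^ q * t ^ q * v 0 ^ q + s ^ q * v 1 ^ q := by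
      rw [add_pow_q hF, mul_pow, mul_pow, mul_pow]
    rw [a1, a2, mul_pow]
    have hαinv : α⁻¹ * α = 1 := inv_mul_cancel₀ hα0
    have hA : α ^ q = -α⁻¹ := by
      field_simp
      linear_combination hα
    rw [hA]
    linear_combination (u 0 * v 0 ^ q + u 1 * v 1 ^ q) * e1 + (α * u 0 * v 1 ^ q + α⁻¹ * u 1 * v 0 ^ q) * e2 -
      (u 0 * v 0 ^ q + u 1 * v 1 ^ q) * t * t ^ q * hαinv + u 2 * v 2 ^ q * hγγ
  obtain ⟨b, hb⟩ := exists_basis !![1, α, 0; 1, -α, 0; 0, 0, (1 : F)] (by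
    rw [Matrix.det_fin_three]
    simp
    intro h
    have : 2 * α = 0 := by linear_combination -h
    rcases mul_eq_zero.1 this with h | h
    · exact h2 h
    · exact hα0 h)
  have hsum : s + t = μ := by
    rw [hs, ht]
    field_simp
    ring
  have hdif : s - t = κ := by
    rw [hs, ht]
    field_simp
    ring
  refine xcond_of_eigen (repU F q) ⟨x₀, hx₀⟩ (n := n) (by omega) b ![μ, κ, γ] ?_ ?_ hμ ((2 ^ n - 1) * q) ?_ hγh ?_
    (by rw [card_units' hcF]; exact h4)
  · intro i j hij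
    fin_cases i <;> fin_cases j
    · rfl
    · exact absurd hij hne
    · exact absurd (by change μ = γ at hij; rw [hij]; exact hγh) half
    · exact absurd hij.symm hne
    · rfl
    · exact absurd (by change κ = γ at hij; rw [hij]; exact hγh) half'
    · exact absurd (by change γ = μ at hij; rw [← hij]; exact hγh) half
    · exact absurd (by change γ = κ at hij; rw [← hij]; exact hγh) half'
    · rfl
  · intro i
    ext j
    rw [repU_apply, Fin.sum_univ_three, hb]
    fin_cases i <;> fin_cases j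
    · simp [x₀]
      rw [mul_assoc, inv_mul_cancel₀ hα0, mul_one, hsum]
    · simp [x₀]
      rw [← hsum]
      ring
    · simp [x₀]
    · simp [x₀]
      rw [← sub_eq_add_neg, mul_assoc, inv_mul_cancel₀ hα0, mul_one, hdif]
    · simp [x₀]
      rw [← hdif]
      ring
    · simp [x₀]
    · simp [x₀]
    · simp [x₀]
    · simp [x₀]
  · change κ = μ ^ ((2 ^ n - 1) * q)
    rw [hκ]
    refine inv_eq_of_mul_eq_one_left ?_
    rw [← pow_add, ← Nat.succ_mul, Nat.succ_eq_add_one, Nat.sub_add_cancel (Nat.one_le_pow _ _ (by norm_num)), pow_mul,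
      ← hμ, pow_orderOf_eq_one, one_pow]
  · intro c a hc ha
    -- a 1 = 1
    have hherm := (LieClassical.SUBasic.mem_SU_iff c.1).1 c.2 (b 0) (b 1)
    have hc0 : c.1.1 *ᵥ b 0 = a 0 • b 0 := hc 0
    have hc1 : c.1.1 *ᵥ b 1 = a 1 • b 1 := hc 1
    have hc2 : c.1.1 *ᵥ b 2 = a 2 • b 2 := hc 2
    rw [hc0, hc1, ha, one_smul] at hherm
    simp only [LieClassical.SUBasic.hermForm_apply, Fin.sum_univ_three, hb] at hherm
    simp [zero_pow (show q ≠ 0 by omega)] at hherm
    rw [hneg, hneg, mul_pow] at hherm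
    have h7 : 2 * (a 1 ^ q - 1) = 0 := by linear_combination hherm + (a 1 ^ q - 1) * hα
    have h8 : a 1 ^ q = 1 := by
      rcases mul_eq_zero.1 h7 with h | h
      · exact absurd h h2
      · exact sub_eq_zero.1 h
    have h9 : a 1 = 1 := by rw [← hfr (a 1), h8, one_pow]
    rw [ha, one_smul] at hc0
    rw [h9, one_smul] at hc1
    have r0 : ∀ j, c.1.1 j 0 * 1 + c.1.1 j 1 * α + c.1.1 j 2 * 0 = b 0 j := by
      intro j
      have := congrFun hc0 j
      simp only [Matrix.mulVec, dotProduct, Fin.sum_univ_three] at this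
      rw [← this, hb]
      simp
    have r1 : ∀ j, c.1.1 j 0 * 1 + c.1.1 j 1 * -α + c.1.1 j 2 * 0 = b 1 j := by
      intro j
      have := congrFun hc1 j
      simp only [Matrix.mulVec, dotProduct, Fin.sum_univ_three] at this
      rw [← this, hb]
      simp
    have r2 : ∀ j, c.1.1 j 2 = a 2 * b 2 j := by
      intro j
      have := congrFun hc2 j
      simp only [Matrix.mulVec, dotProduct, Fin.sum_univ_three, Pi.smul_apply, smul_eq_mul] at this
      rw [← this, hb]
      simp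
    have key : ∀ x y z w : F, x * 1 + y * α + w * 0 = z → x * 1 + y * -α + w * 0 = z → x = z ∧ y = 0 := by
      intro x y z w h h'
      have e1 : 2 * (y * α) = 0 := by linear_combination h - h'
      have e2 : y = 0 := by
        rcases mul_eq_zero.1 e1 with h | h
        · exact absurd h h2
        · rcases mul_eq_zero.1 h with h | h
          · exact h
          · exact absurd h hα0
      exact ⟨by rw [e2] at h; linear_combination h, e2⟩
    have key' : ∀ x y z w : F, x * 1 + y * α + w * 0 = z → x * 1 + y * -α + w * 0 = -z → x = 0 ∧ y * α = z := by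
      intro x y z w h h'
      have e1 : 2 * x = 0 := by linear_combination h + h'
      have e2 : x = 0 := by
        rcases mul_eq_zero.1 e1 with h | h
        · exact absurd h h2
        · exact h
      exact ⟨e2, by rw [e2] at h; linear_combination h⟩
    obtain ⟨c00, c01⟩ := key _ _ 1 _ (by rw [r0 0, hb]; rfl) (by rw [r1 0, hb]; rfl)
    obtain ⟨c10, c11⟩ := key' _ _ α _ (by rw [r0 1, hb]; rfl) (by rw [r1 1, hb]; rfl)
    obtain ⟨c20, c21⟩ := key _ _ 0 _ (by rw [r0 2, hb]; rfl) (by rw [r1 2, hb]; rfl)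
    have c11' : c.1.1 1 1 = 1 := mul_right_cancel₀ hα0 (by rw [c11, one_mul])
    have c02 : c.1.1 0 2 = 0 := by rw [r2 0, hb]; simp
    have c12 : c.1.1 1 2 = 0 := by rw [r2 1, hb]; simp
    have hdet := c.1.2
    rw [Matrix.det_fin_three] at hdet
    rw [c00, c01, c11', c10, c20, c21, c02, c12] at hdet
    have c22 : c.1.1 2 2 = 1 := by linear_combination hdet
    apply Subtype.ext
    apply Subtype.ext
    ext i j
    fin_cases i <;> fin_cases j
    · exact c00
    · exact c01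
    · exact c02
    · exact c10
    · exact c11'
    · exact c12
    · exact c20
    · exact c21
    · exact c22

/-- **`XCond` for `PSU3(q)`, `q` odd** -/
theorem xcond_psu3 {F : Type u} [Field F] [Fintype F] {q : ℕ} (hF : Fintype.card F = q ^ 2) (h2 : (2 : F) ≠ 0) :
    XCond (PSU 3 F q) := by
  refine xcond_quot _ le_rfl ?_ (xcond_su3 hF h2)
  rw [S0279.result hF 3 le_rfl]
  intro hd
  have := hd.trans (Nat.gcd_dvd_left 3 (q + 1))
  omega

end Cfsg.Agent.H393.K547
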