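import Cfsg.Agent.H821.K547.Defs

/-!
# S4547: `XCond` from an element with three eigenvectors (helper393)
-/

set_option autoImplicit false

namespace Cfsg.Agent.H393.K547

open Subgroup Cfsg.Agent.H821.K547

universe u

/-- cyclic subgroup of index at most 2 in a Sylow 2-subgroup -/
theorem xcond_of_card {G : Type u} [Group G] (x : G) (n : ℕ) (hx : orderOf x = 2 ^ n)
    (h : ¬ 2 ^ (n + 2) ∣ Nat.card G) : XCond G :=
  ⟨x, n, hx, fun hd => h (hd.trans (card_subgroup_dvd_card _))⟩

theorem mem_normalizer_zpowers {G : Type u} [Group G] [Finite G] {x g : G} :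
    g ∈ normalizer (zpowers x : Set G) ↔ ∃ j : ℕ, g * x * g⁻¹ = x ^ j := by
  constructor
  · intro h
    have h1 : g * x * g⁻¹ ∈ zpowers x := (mem_normalizer_iff.1 h x).1 (mem_zpowers x)
    obtain ⟨j, hj⟩ := (mem_powers_iff_mem_zpowers).2 h1
    exact ⟨j, hj.symm⟩
  · rintro ⟨j, hj⟩
    have h1 : ∀ y ∈ zpowers x, g * y * g⁻¹ ∈ zpowers x := by
      intro y hy
      obtain ⟨k, rfl⟩ := mem_zpowers_iff.1 hy
      rw [← conj_zpow, hj]
      exact zpow_mem (pow_mem (mem_zpowers x) j) k
    have h2 : (zpowers x).map (MulAut.conj g).toMonoidHom = zpowers x := by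
      refine Subgroup.eq_of_le_of_card_ge ?_ ?_
      · rintro _ ⟨y, hy, rfl⟩
        exact h1 y hy
      · rw [Nat.card_congr ((zpowers x).equivMapOfInjective (MulAut.conj g).toMonoidHom (MulAut.conj g).injective).toEquiv]
    rw [mem_normalizer_iff]
    intro y
    refine ⟨fun hy => h1 y hy, fun hy => ?_⟩
    have h3 : g * y * g⁻¹ ∈ (zpowers x).map (MulAut.conj g).toMonoidHom := by rw [h2]; exact hy
    obtain ⟨z, hz, hzy⟩ := h3
    have : z = y := by
      have h4 : g * z * g⁻¹ = g * y * g⁻¹ := hzy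
      simpa using h4
    exact this ▸ hz

/-- if all elements of `N(⟨x⟩)` outside `C(x)` act in the same way on `x` -/
theorem not_dvd_of_two {G : Type u} [Group G] [Finite G] {x : G} {m : ℕ}
    (h1 : ∀ g h : G, g ∈ normalizer (zpowers x : Set G) → h ∈ normalizer (zpowers x : Set G) →
      g * x * g⁻¹ ≠ x → h * x * h⁻¹ ≠ x → g * x * g⁻¹ = h * x * h⁻¹)
    (h2 : ¬ 2 ^ m ∣ Nat.card (centralizer ({x} : Set G))) :
    ¬ 2 ^ (m + 1) ∣ Nat.card ↥(normalizer (zpowers x : Set G)) := by
  have hle : centralizer ({x} : Set G) ≤ normalizer (zpowers x : Set G) := by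
    intro c hc
    rw [mem_normalizer_zpowers]
    refine ⟨1, ?_⟩
    rw [mem_centralizer_singleton_iff] at hc
    rw [pow_one, hc, mul_inv_cancel_right]
  have hmem : ∀ c : G, c ∈ centralizer ({x} : Set G) ↔ c * x * c⁻¹ = x := by
    intro c
    rw [mem_centralizer_singleton_iff, mul_inv_eq_iff_eq_mul]
  have hcard : (centralizer ({x} : Set G)).relIndex (normalizer (zpowers x : Set G)) *
      Nat.card (centralizer ({x} : Set G)) = Nat.card ↥(normalizer (zpowers x : Set G)) := by
    rw [relIndex, ← Nat.card_congr (subgroupOfEquivOfLe hle).toEquiv, mul_comm]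
    exact card_mul_index _
  have hidx : (centralizer ({x} : Set G)).relIndex (normalizer (zpowers x : Set G)) ∣ 2 := by
    by_cases hall : ∀ g ∈ normalizer (zpowers x : Set G), g * x * g⁻¹ = x
    · have : (centralizer ({x} : Set G)).relIndex (normalizer (zpowers x : Set G)) = 1 := by
        rw [relIndex_eq_one]
        intro g hg
        exact (hmem g).2 (hall g hg)
      rw [this]
      exact one_dvd _
    · push Not at hall
      obtain ⟨a, ha, hax⟩ := hall
      have : (centralizer ({x} : Set G)).relIndex (normalizer (zpowers x : Set G)) = 2 := by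
        rw [relIndex, index_eq_two_iff]
        refine ⟨⟨a⁻¹, inv_mem ha⟩, fun b => ?_⟩
        rw [xor_iff_iff_not]
        rw [mem_subgroupOf, mem_subgroupOf, hmem, hmem]
        change (b : G) * a⁻¹ * x * ((b : G) * a⁻¹)⁻¹ = x ↔ ¬ ((b : G) * x * (b : G)⁻¹ = x)
        have key : ((b : G) * a⁻¹ * x * ((b : G) * a⁻¹)⁻¹ = x) ↔ a⁻¹ * x * a = (b : G)⁻¹ * x * b := by
          constructor
          · intro h
            calc a⁻¹ * x * a = (b : G)⁻¹ * ((b : G) * a⁻¹ * x * ((b : G) * a⁻¹)⁻¹) * b := by group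
              _ = (b : G)⁻¹ * x * b := by rw [h]
          · intro h
            calc (b : G) * a⁻¹ * x * ((b : G) * a⁻¹)⁻¹ = (b : G) * (a⁻¹ * x * a) * (b : G)⁻¹ := by group
              _ = x := by rw [h]; group
        rw [key]
        have ha' : a⁻¹ * x * a ≠ x := by
          intro h
          apply hax
          calc a * x * a⁻¹ = a * (a⁻¹ * x * a) * a⁻¹ := by rw [h]
            _ = x := by group
        constructor
        · intro h hb
          apply ha'
          rw [h]
          calc (b : G)⁻¹ * x * b = (b : G)⁻¹ * ((b : G) * x * (b : G)⁻¹) * b := by rw [hb]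
            _ = x := by group
        · intro hb
          have hb' : (b : G)⁻¹ * x * b ≠ x := by
            intro h
            apply hb
            calc (b : G) * x * (b : G)⁻¹ = b * ((b : G)⁻¹ * x * b) * (b : G)⁻¹ := by rw [h]
              _ = x := by group
          have := h1 a⁻¹ (b : G)⁻¹ (inv_mem ha) (inv_mem b.2) (by rwa [inv_inv]) (by rwa [inv_inv])
          rwa [inv_inv, inv_inv] at this
      rw [this]
  intro hd
  rw [← hcard] at hd
  apply h2
  rcases (Nat.dvd_prime Nat.prime_two).1 hidx with h | h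
  · rw [h, one_mul] at hd
    exact (pow_dvd_pow 2 (Nat.le_succ m)).trans hd
  · rw [h, pow_succ, mul_comm] at hd
    exact Nat.dvd_of_mul_dvd_mul_left (by norm_num) hd

/-- `XCond` passes to the quotient by a central subgroup of odd order -/
theorem xcond_quot {G : Type u} [Group G] [Finite G] (Z : Subgroup G) [Z.Normal] (hZ : Z ≤ center G)
    (hodd : ¬ 2 ∣ Nat.card Z) (h : XCond G) : XCond (G ⧸ Z) := by
  obtain ⟨x, n, hx, hN⟩ := h
  have htriv : ∀ z ∈ Z, ∀ k : ℕ, z ^ 2 ^ k = 1 → z = 1 := by
    intro z hz k hk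
    have h1 : orderOf (⟨z, hz⟩ : Z) ∣ 2 ^ k := orderOf_dvd_of_pow_eq_one (Subtype.ext hk)
    have h2 : orderOf (⟨z, hz⟩ : Z) ∣ Nat.card Z := orderOf_dvd_natCard _
    obtain ⟨j, -, hj⟩ := (Nat.dvd_prime_pow Nat.prime_two).1 h1
    have h3 : j = 0 := by
      by_contra h0
      exact hodd ((dvd_pow_self 2 h0).trans (hj ▸ h2))
    rw [h3, pow_zero, orderOf_eq_one_iff] at hj
    exact congrArg Subtype.val hj
  refine ⟨(x : G ⧸ Z), n, ?_, ?_⟩
  · refine Nat.dvd_antisymm ?_ ?_
    · rw [← hx]
      exact orderOf_map_dvd (QuotientGroup.mk' Z) x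
    · rw [← hx]
      refine orderOf_dvd_of_pow_eq_one (htriv _ ?_ n ?_)
      · have h1 : ((x ^ orderOf (x : G ⧸ Z) : G) : G ⧸ Z) = 1 := by
          rw [QuotientGroup.mk_pow, pow_orderOf_eq_one]
        exact (QuotientGroup.eq_one_iff _).1 h1
      · rw [← pow_mul, mul_comm, pow_mul, ← hx, pow_orderOf_eq_one, one_pow]
  · intro hd
    apply hN
    refine hd.trans ?_
    have h1 : (normalizer (zpowers (x : G ⧸ Z) : Set (G ⧸ Z))).comap (QuotientGroup.mk' Z) =
        normalizer (zpowers x : Set G) := by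
      ext g
      rw [mem_comap, mem_normalizer_zpowers, mem_normalizer_zpowers]
      constructor
      · rintro ⟨j, hj⟩
        refine ⟨j, ?_⟩
        have h2 : ((g * x * g⁻¹ * (x ^ j)⁻¹ : G) : G ⧸ Z) = 1 := by
          rw [QuotientGroup.mk_mul, QuotientGroup.mk_inv, QuotientGroup.mk_pow, mul_inv_eq_one]
          exact hj
        have h3 := (QuotientGroup.eq_one_iff _).1 h2
        have h4 := htriv _ h3 n ?_
        · rwa [mul_inv_eq_one] at h4
        · have h5 : (g * x * g⁻¹ * (x ^ j)⁻¹) * (x ^ j) = g * x * g⁻¹ := by group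
          have hc : Commute (g * x * g⁻¹ * (x ^ j)⁻¹) (x ^ j) := ((mem_center_iff.1 (hZ h3)) (x ^ j)).symm
          have h6 : (g * x * g⁻¹) ^ 2 ^ n = 1 := by
            rw [conj_pow, ← hx, pow_orderOf_eq_one]
            group
          rw [← h5, hc.mul_pow, ← pow_mul, mul_comm j, pow_mul, ← hx, pow_orderOf_eq_one, one_pow, mul_one] at h6
          rwa [hx] at h6
      · rintro ⟨j, hj⟩
        refine ⟨j, ?_⟩
        have := congrArg (QuotientGroup.mk' Z) hj
        simpa using this
    rw [← h1]
    have h7 := map_comap_eq_self_of_surjective (QuotientGroup.mk'_surjective Z)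
      (normalizer (zpowers (x : G ⧸ Z) : Set (G ⧸ Z)))
    calc Nat.card ↥(normalizer (zpowers (x : G ⧸ Z) : Set (G ⧸ Z)))
        = Nat.card (((normalizer (zpowers (x : G ⧸ Z) : Set (G ⧸ Z))).comap (QuotientGroup.mk' Z)).map
          (QuotientGroup.mk' Z)) := by rw [h7]
      _ ∣ _ := card_map_dvd _ _

section eig

variable {K V : Type*} [Field K] [AddCommGroup V] [Module K V]

/-- the eigenvectors of an endomorphism which is diagonal with distinct eigenvalues -/
theorem eigen_eq {ι : Type*} [Finite ι] (b : Module.Basis ι K V) (l : ι → K) (hl : Function.Injective l)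
    (T : Module.End K V) (hT : ∀ i, T (b i) = l i • b i) {u : V} {i : ι} (hu : T u = l i • u) : ∃ a : K, u = a • b i := by
  classical
  have := Fintype.ofFinite ι
  refine ⟨b.repr u i, ?_⟩
  have h1 : ∀ j, b.repr (T u) j = l j * b.repr u j := by
    intro j
    conv_lhs => rw [← b.sum_repr u]
    simp only [map_sum, map_smul, hT]
    rw [Finsupp.finsetSum_apply, Finset.sum_eq_single j]
    · simp [mul_comm]
    · intro k _ hk
      simp [hk]
    · intro h
      exact absurd (Finset.mem_univ _) h
  have h2 : ∀ j, j ≠ i → b.repr u j = 0 := by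
    intro j hj
    have h3 := h1 j
    rw [hu, map_smul, Finsupp.smul_apply, smul_eq_mul] at h3
    have h4 : (l i - l j) * b.repr u j = 0 := by rw [sub_mul, h3, sub_self]
    rcases mul_eq_zero.1 h4 with h | h
    · exact absurd (hl (sub_eq_zero.1 h)).symm hj
    · exact h
  conv_lhs => rw [← b.sum_repr u]
  rw [Finset.sum_eq_single i]
  · intro j _ hj
    rw [h2 j hj, zero_smul]
  · intro h
    exact absurd (Finset.mem_univ _) h

/-- the eigenvalues of an endomorphism which is diagonal -/
theorem exists_eig {ι : Type*} [Finite ι] (b : Module.Basis ι K V) (l : ι → K)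
    (T : Module.End K V) (hT : ∀ i, T (b i) = l i • b i) {u : V} (hu0 : u ≠ 0) {c : K} (hu : T u = c • u) :
    ∃ i, l i = c := by
  classical
  have := Fintype.ofFinite ι
  have h1 : ∀ j, b.repr (T u) j = l j * b.repr u j := by
    intro j
    conv_lhs => rw [← b.sum_repr u]
    simp only [map_sum, map_smul, hT]
    rw [Finsupp.finsetSum_apply, Finset.sum_eq_single j]
    · simp [mul_comm]
    · intro k _ hk
      simp [hk]
    · intro h
      exact absurd (Finset.mem_univ _) h
  by_contra hcon
  push Not at hcon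
  apply hu0
  have h2 : ∀ j, b.repr u j = 0 := by
    intro j
    have h3 := h1 j
    rw [hu, map_smul, Finsupp.smul_apply, smul_eq_mul] at h3
    have h4 : (c - l j) * b.repr u j = 0 := by rw [sub_mul, h3, sub_self]
    rcases mul_eq_zero.1 h4 with h | h
    · exact absurd (sub_eq_zero.1 h).symm (hcon j)
    · exact h
  apply b.repr.map_eq_zero_iff.1
  ext j
  rw [h2 j]
  rfl

/-- `XCond` from an element with three eigenvectors -/
theorem xcond_of_eigen {H : Type u} [Group H] [Finite H] [Finite K] (ρ : H →* Module.End K V) (x : H) {n : ℕ}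
    (hn : 1 ≤ n) (b : Module.Basis (Fin 3) K V) (l : Fin 3 → K) (hl : Function.Injective l)
    (hx : ∀ i, ρ x (b i) = l i • b i) (h0 : orderOf (l 0) = 2 ^ n) (k : ℕ) (h1 : l 1 = l 0 ^ k)
    (h2 : l 2 ^ 2 ^ (n - 1) = 1)
    (hinj : ∀ (c : H) (a : Fin 3 → K), (∀ i, ρ c (b i) = a i • b i) → a 0 = 1 → c = 1)
    (hK : ¬ 2 ^ (n + 1) ∣ Nat.card Kˣ) : XCond H := by
  have hpow : ∀ m : ℕ, ∀ i, ρ (x ^ m) (b i) = l i ^ m • b i := by
    intro m i
    induction m with
    | zero => simp
    | succ m ih => rw [pow_succ, map_mul, Module.End.mul_apply, hx, map_smul, ih, smul_smul, ← pow_succ']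
  have hb0 : b 0 ≠ 0 := b.ne_zero 0
  -- the order of x
  have hord : ∀ m : ℕ, x ^ m = 1 ↔ l 0 ^ m = 1 := by
    intro m
    constructor
    · intro h
      have h3 := hpow m 0
      rw [h, map_one, Module.End.one_apply] at h3
      by_contra hne
      apply hne
      have h4 : (l 0 ^ m - 1) • b 0 = 0 := by rw [sub_smul, ← h3, one_smul, sub_self]
      rcases smul_eq_zero.1 h4 with h5 | h5
      · exact sub_eq_zero.1 h5
      · exact absurd h5 hb0
    · intro h
      exact hinj _ (fun i => l i ^ m) (hpow m) h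
  have hox : orderOf x = 2 ^ n := by
    rw [← h0]
    refine Nat.dvd_antisymm (orderOf_dvd_of_pow_eq_one ((hord _).2 (pow_orderOf_eq_one _)))
      (orderOf_dvd_of_pow_eq_one ((hord _).1 (pow_orderOf_eq_one _)))
  have hpe : ∀ i j : ℕ, l 0 ^ i = l 0 ^ j → x ^ i = x ^ j := by
    have hl0 : l 0 ≠ 0 := by
      intro h
      rw [h, orderOf_zero] at h0
      exact absurd h0 (by positivity)
    have key : ∀ i j : ℕ, i ≤ j → l 0 ^ i = l 0 ^ j → x ^ i = x ^ j := by
      intro i j hij h
      obtain ⟨d, rfl⟩ := Nat.exists_eq_add_of_le hij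
      rw [pow_add] at h ⊢
      have h3 : l 0 ^ d = 1 := by
        have h4 : l 0 ^ i * 1 = l 0 ^ i * l 0 ^ d := by rw [mul_one]; exact h
        exact (mul_left_cancel₀ (pow_ne_zero _ hl0) h4).symm
      rw [(hord d).2 h3, mul_one]
    intro i j h
    rcases le_total i j with hij | hij
    · exact key i j hij h
    · exact (key j i hij h.symm).symm
  refine ⟨x, n, hox, ?_⟩
  refine not_dvd_of_two (m := n + 1) ?_ ?_
  · have key : ∀ g : H, g ∈ normalizer (zpowers x : Set H) → g * x * g⁻¹ ≠ x →
        ∃ j : ℕ, g * x * g⁻¹ = x ^ j ∧ l 0 ^ (k * j) = l 0 := by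
      intro g hg hgx
      obtain ⟨j, hj⟩ := mem_normalizer_zpowers.1 hg
      refine ⟨j, hj, ?_⟩
      have hg0 : ρ g (b 0) ≠ 0 := by
        intro h
        have h3 : ρ g⁻¹ (ρ g (b 0)) = b 0 := by
          rw [← Module.End.mul_apply, ← map_mul, inv_mul_cancel, map_one, Module.End.one_apply]
        rw [h, map_zero] at h3
        exact hb0 h3.symm
      have hge : ρ (x ^ j) (ρ g (b 0)) = l 0 • ρ g (b 0) := by
        rw [← Module.End.mul_apply, ← map_mul, ← hj, inv_mul_cancel_right, map_mul, Module.End.mul_apply, hx, map_smul]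
      obtain ⟨i, hi⟩ := exists_eig b (fun i => l i ^ j) (ρ (x ^ j)) (hpow j) hg0 hge
      fin_cases i
      · exfalso
        apply hgx
        rw [hj]
        have := hpe j 1 (by rw [pow_one]; exact hi)
        rwa [pow_one] at this
      · change l 1 ^ j = l 0 at hi
        rw [h1, ← pow_mul] at hi
        exact hi
      · exfalso
        change l 2 ^ j = l 0 at hi
        have h4 : l 0 ^ 2 ^ (n - 1) = 1 := by
          rw [← hi, ← pow_mul, mul_comm, pow_mul, h2, one_pow]
        have h5 := orderOf_dvd_of_pow_eq_one h4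
        rw [h0] at h5
        have h6 := (Nat.pow_dvd_pow_iff_le_right (by norm_num)).1 h5
        omega
    intro g h hg hh hgx hhx
    obtain ⟨j, hj, hj'⟩ := key g hg hgx
    obtain ⟨i, hi, hi'⟩ := key h hh hhx
    rw [hj, hi]
    apply hpe
    calc l 0 ^ j = (l 0 ^ (k * i)) ^ j := by rw [hi']
      _ = (l 0 ^ (k * j)) ^ i := by rw [← pow_mul, ← pow_mul]; congr 1; ring
      _ = l 0 ^ i := by rw [hj']
  · intro hd
    apply hK
    refine hd.trans ?_
    -- the centraliser embeds in the multiplicative group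
    have hc : ∀ c : centralizer ({x} : Set H), ∀ i, ∃ a : K, ρ c (b i) = a • b i := by
      intro c i
      refine eigen_eq b l hl (ρ x) hx ?_
      have := mem_centralizer_singleton_iff.1 c.2
      rw [← Module.End.mul_apply, ← map_mul, ← this, map_mul, Module.End.mul_apply, hx, map_smul]
    choose a ha using hc
    have hmul : ∀ c d : centralizer ({x} : Set H), a (c * d) 0 = a c 0 * a d 0 := by
      intro c d
      have h3 : ρ ((c * d : centralizer ({x} : Set H)) : H) (b 0) = (a c 0 * a d 0) • b 0 := by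
        rw [coe_mul, map_mul, Module.End.mul_apply, ha, map_smul, ha, smul_smul, mul_comm]
      rw [ha] at h3
      have h4 : (a (c * d) 0 - a c 0 * a d 0) • b 0 = 0 := by rw [sub_smul, h3, sub_self]
      rcases smul_eq_zero.1 h4 with h5 | h5
      · exact sub_eq_zero.1 h5
      · exact absurd h5 hb0
    have hone : a 1 0 = 1 := by
      have h3 := ha 1 0
      rw [coe_one, map_one, Module.End.one_apply] at h3
      have h4 : (a 1 0 - 1) • b 0 = 0 := by rw [sub_smul, ← h3, one_smul, sub_self]
      rcases smul_eq_zero.1 h4 with h5 | h5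
      · exact sub_eq_zero.1 h5
      · exact absurd h5 hb0
    let φ : centralizer ({x} : Set H) →* K := ⟨⟨fun c => a c 0, hone⟩, hmul⟩
    have hφ : Function.Injective φ.toHomUnits := by
      rw [injective_iff_map_eq_one]
      intro c hc
      have h3 : a c 0 = 1 := congrArg Units.val hc
      exact Subtype.ext (hinj c (a c) (ha c) h3)
    exact card_dvd_of_injective _ hφ

end eig

end Cfsg.Agent.H393.K547
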